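import Cfsg.Agent.S0215
import Cfsg.Agent.Cores.Basic

/-!
A class of involutions whose products have `p`-power order, `p` odd, lies in a coset of the
`p`-core: by Glauberman's Z* theorem and coprime action.
-/

set_option autoImplicit false

namespace Cfsg.Agent.ThreeTrans

open Cfsg
open scoped Pointwise

variable {G : Type*} [Group G] [Finite G]

theorem eq_one_of_orderOf_pows {x : G} {p q i j : ℕ} (hp : p.Prime) (hq : q.Prime) (hne : p ≠ q)
    (hi : orderOf x = p ^ i) (hj : orderOf x ∣ q ^ j) : x = 1 := by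
  rw [← orderOf_eq_one_iff]
  refine Nat.eq_one_of_dvd_coprimes ?_ (dvd_of_eq hi) hj
  exact Nat.Coprime.pow i j ((Nat.coprime_primes hp hq).mpr hne)

/-- An involution fixes a Sylow subgroup of a normal subgroup of odd order. -/
theorem exists_fixed_sylow {N : Subgroup G} [N.Normal] (hodd : Odd (Nat.card N)) {d : G}
    (hd : orderOf d = 2) (q : ℕ) [Fact q.Prime] :
    ∃ Q : Sylow q N, ∀ x : N, x ∈ Q → ∃ y : N, y ∈ Q ∧ (y : G) = d * x * d⁻¹ := by
  haveI : Fact (Nat.Prime 2) := ⟨Nat.prime_two⟩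
  let φ : Subgroup.zpowers d →* MulAut N := MulAut.conjNormal.comp (Subgroup.zpowers d).subtype
  letI : MulAction (Subgroup.zpowers d) (Sylow q N) := MulAction.compHom (Sylow q N) φ
  have h2 : IsPGroup 2 (Subgroup.zpowers d) :=
    IsPGroup.of_card (n := 1) (by rw [Nat.card_zpowers, hd, pow_one])
  obtain ⟨Q⟩ := (inferInstance : Nonempty (Sylow q N))
  have hdiv : Nat.card (Sylow q N) ∣ Nat.card N :=
    (Q.card_dvd_index).trans (Subgroup.index_dvd_card _)
  obtain ⟨R, hR⟩ := h2.nonempty_fixed_point_of_prime_not_dvd_card (Sylow q N)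
    (fun h => (Nat.not_even_iff_odd.mpr hodd) (even_iff_two_dvd.mpr (h.trans hdiv)))
  refine ⟨R, fun x hx => ⟨φ ⟨d, Subgroup.mem_zpowers d⟩ • x, ?_, rfl⟩⟩
  have he : φ ⟨d, Subgroup.mem_zpowers d⟩ • R = R := hR ⟨d, Subgroup.mem_zpowers d⟩
  rw [← he]
  exact Subgroup.smul_mem_pointwise_smul x _ _ hx

theorem prod_mem_pCore {p : ℕ} (hp : p.Prime) (hp2 : p ≠ 2) (d : G) (hd : orderOf d = 2)
    (hprod : ∀ a ∈ conjugatesOf d, ∀ b ∈ conjugatesOf d, ∃ k : ℕ, orderOf (a * b) = p ^ k) :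
    ∀ a ∈ conjugatesOf d, ∀ b ∈ conjugatesOf d, a * b ∈ Cfsg.pCore p G := by
  haveI : Fact p.Prime := ⟨hp⟩
  haveI h2 : Fact (Nat.Prime 2) := ⟨Nat.prime_two⟩
  have hd2 : d * d = 1 := by
    have := pow_orderOf_eq_one d
    rwa [hd, pow_two] at this
  have hdinv : d⁻¹ = d := inv_eq_of_mul_eq_one_right hd2
  have hmem : ∀ g : G, g * d * g⁻¹ ∈ conjugatesOf d := fun g =>
    isConj_iff.mpr ⟨g, rfl⟩
  have hcom : ∀ x : G, ∃ k, orderOf (d * x * d⁻¹ * x⁻¹) = p ^ k := fun x => by
    have := hprod d mem_conjugatesOf_self _ (hmem x)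
    simpa [hdinv, mul_assoc] using this
  -- the involution is isolated in a Sylow 2-subgroup
  have h2g : IsPGroup 2 (Subgroup.zpowers d) :=
    IsPGroup.of_card (n := 1) (by rw [Nat.card_zpowers, hd, pow_one])
  obtain ⟨P, hP⟩ := h2g.exists_le_sylow
  obtain ⟨N, hN, hodd, hc⟩ := Cfsg.Agent.S0215.result P d hd (hP (Subgroup.mem_zpowers d))
    (fun g hg => by
      obtain ⟨k, hk⟩ := hprod d mem_conjugatesOf_self _ (hmem g)
      obtain ⟨j, hj⟩ := P.2 ⟨d * (g * d * g⁻¹), mul_mem (hP (Subgroup.mem_zpowers d)) hg⟩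
      have h1 : d * (g * d * g⁻¹) = 1 := eq_one_of_orderOf_pows hp Nat.prime_two hp2 hk
        (orderOf_dvd_of_pow_eq_one (congrArg Subtype.val hj))
      exact (eq_inv_of_mul_eq_one_right h1).trans hdinv)
  haveI := hN
  set C : Subgroup N := (Subgroup.centralizer ({d} : Set G)).subgroupOf N
  -- every prime other than `p` is prime to the index of the centraliser
  have hidx : ∀ q : ℕ, q.Prime → q ≠ p → ¬ q ∣ C.index := by
    intro q hq hqp hdvd
    haveI : Fact q.Prime := ⟨hq⟩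
    obtain ⟨Q, hQ⟩ := exists_fixed_sylow hodd hd q
    refine Q.not_dvd_index (hdvd.trans (Subgroup.index_dvd_of_le ?_))
    intro x hx
    obtain ⟨y, hy, hye⟩ := hQ x hx
    obtain ⟨k, hk⟩ := hcom x
    obtain ⟨j, hj⟩ := Q.2 ⟨y * x⁻¹, mul_mem hy (inv_mem hx)⟩
    have hj' : ((y : G) * (x : G)⁻¹) ^ q ^ j = 1 :=
      congrArg (Subtype.val ∘ Subtype.val) hj
    rw [hye] at hj'
    have h1 := eq_one_of_orderOf_pows hp hq (Ne.symm hqp) hk (orderOf_dvd_of_pow_eq_one hj')
    rw [Subgroup.mem_subgroupOf, Subgroup.mem_centralizer_singleton_iff]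
    rw [mul_inv_eq_one] at h1
    calc (x : G) * d = (d * x * d⁻¹) * d := by rw [h1]
      _ = d * x := by group
  obtain ⟨P0, hP0⟩ := exists_fixed_sylow hodd hd p
  have hcop : Nat.Coprime C.index (P0 : Subgroup N).index := by
    refine Nat.coprime_of_dvd fun q hq h1 h2' => ?_
    rcases eq_or_ne q p with rfl | hqp
    · exact P0.not_dvd_index h2'
    · exact hidx q hq hqp h1
  have hrel : C.relIndex (P0 : Subgroup N) = C.index := by
    have h := Subgroup.index_inf_le (H := C) (K := (P0 : Subgroup N))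
    have hdvd : C.index ∣ C.relIndex (P0 : Subgroup N) * (P0 : Subgroup N).index := by
      rw [← Subgroup.inf_relIndex_right, Subgroup.relIndex_mul_index inf_le_right]
      exact Subgroup.index_dvd_of_le inf_le_left
    have h1 := hcop.dvd_of_dvd_mul_right hdvd
    have hpos : C.relIndex (P0 : Subgroup N) ≠ 0 := by
      rw [Subgroup.relIndex]; exact Subgroup.index_ne_zero_of_finite
    refine le_antisymm ?_ (Nat.le_of_dvd (Nat.pos_of_ne_zero hpos) h1)
    rw [← Subgroup.inf_relIndex_right]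
    have hle : (C ⊓ (P0 : Subgroup N)).relIndex (P0 : Subgroup N) * (P0 : Subgroup N).index ≤
        C.index * (P0 : Subgroup N).index := by
      rw [Subgroup.relIndex_mul_index inf_le_right]; exact h
    exact Nat.le_of_mul_le_mul_right hle (Nat.pos_of_ne_zero Subgroup.index_ne_zero_of_finite)
  have hfact : ∀ k : N, ∃ x ∈ P0, x⁻¹ * k ∈ C := by
    intro k
    let f : (P0 : Subgroup N) ⧸ C.subgroupOf (P0 : Subgroup N) → N ⧸ C :=
      Quotient.map' Subtype.val fun a b h => by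
        rw [QuotientGroup.leftRel_apply] at h ⊢
        exact h
    have hf : Function.Injective f := by
      intro a b
      induction a using QuotientGroup.induction_on
      induction b using QuotientGroup.induction_on
      intro h
      rename_i a b
      rw [QuotientGroup.eq, Subgroup.mem_subgroupOf]
      exact (QuotientGroup.eq (s := C)).mp (h : ((a : N) : N ⧸ C) = ((b : N) : N ⧸ C))
    obtain ⟨a, ha⟩ := ((Nat.bijective_iff_injective_and_card f).mpr ⟨hf, hrel⟩).2 (k : N ⧸ C)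
    induction a using QuotientGroup.induction_on with
    | H x => exact ⟨x, x.2, QuotientGroup.eq.mp ha⟩
  -- all conjugates are conjugate under `N`
  have hgen : ∀ e ∈ conjugatesOf d, d * e ∈ (P0 : Subgroup N).map N.subtype := by
    intro e he
    obtain ⟨g, rfl⟩ := isConj_iff.mp he
    set n := d * (g * d * g⁻¹) with hn
    have hnN : n ∈ N := by
      have := hc g
      rwa [show d * g * d⁻¹ * g⁻¹ = n by rw [hn, hdinv]; group] at this
    obtain ⟨j, hj⟩ := hodd
    have hpow : n ^ (2 * j + 1) = 1 := by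
      rw [← hj]; exact congrArg Subtype.val (pow_card_eq_one' (x := (⟨n, hnN⟩ : N)))
    have hinv : d * n * d = n⁻¹ := by
      refine eq_inv_of_mul_eq_one_left ?_
      calc d * n * d * n = (d * d) * (g * d * g⁻¹) * (d * d) * (g * d * g⁻¹) := by rw [hn]; group
        _ = g * d * d * g⁻¹ := by rw [hd2]; group
        _ = 1 := by rw [mul_assoc g d d, hd2]; group
    set m := n ^ (j + 1) with hm
    have hm2 : m * m = n := by
      rw [hm, ← pow_add, show j + 1 + (j + 1) = (2 * j + 1) + 1 by omega, pow_succ, hpow, one_mul]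
    have hmd : d * m * d = m⁻¹ := by
      have : (d * n * d⁻¹) ^ (j + 1) = d * m * d⁻¹ := conj_pow
      rw [hdinv, hinv, inv_pow] at this
      exact this.symm
    have hmN : m ∈ N := pow_mem hnN _
    obtain ⟨x, hx, hxc⟩ := hfact (⟨m, hmN⟩ : N)⁻¹
    obtain ⟨y, hy, hye⟩ := hP0 x hx
    refine ⟨y * x⁻¹, mul_mem hy (inv_mem hx), ?_⟩
    rw [Subgroup.mem_subgroupOf, Subgroup.mem_centralizer_singleton_iff] at hxc
    simp only [Subgroup.coe_mul, InvMemClass.coe_inv] at hxc
    show (y : G) * (x : G)⁻¹ = n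
    calc (y : G) * (x : G)⁻¹ = d * (x : G) * d⁻¹ * (x : G)⁻¹ := by rw [hye]
      _ = d * m⁻¹ * (((x : G)⁻¹ * m⁻¹)⁻¹ * d * ((x : G)⁻¹ * m⁻¹))⁻¹ * m := by group
      _ = d * m⁻¹ * (((x : G)⁻¹ * m⁻¹)⁻¹ * (((x : G)⁻¹ * m⁻¹) * d))⁻¹ * m := by
          rw [hxc]; group
      _ = d * m⁻¹ * d⁻¹ * m := by group
      _ = (d * m * d)⁻¹ * m := by rw [hdinv]; simp [mul_assoc, hdinv]
      _ = n := by rw [hmd, inv_inv, hm2]
  set L := Subgroup.closure ((fun e => d * e) '' conjugatesOf d) with hL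
  have hLp : IsPGroup p L := (P0.2.map N.subtype).to_le
    ((Subgroup.closure_le _).mpr (by rintro _ ⟨e, he, rfl⟩; exact hgen e he))
  have hsq : ∀ e ∈ conjugatesOf d, e * e = 1 := by
    intro e he
    obtain ⟨g, rfl⟩ := isConj_iff.mp he
    calc g * d * g⁻¹ * (g * d * g⁻¹) = g * (d * d) * g⁻¹ := by group
      _ = 1 := by rw [hd2]; group
  have hpair : ∀ a ∈ conjugatesOf d, ∀ b ∈ conjugatesOf d, a * b ∈ L := by
    intro a ha b hb
    have h := mul_mem (inv_mem (Subgroup.subset_closure (k := (fun e => d * e) '' conjugatesOf d)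
      ⟨a, ha, rfl⟩)) (Subgroup.subset_closure ⟨b, hb, rfl⟩)
    rw [← hL] at h
    convert h using 1
    simp only [mul_inv_rev, inv_eq_of_mul_eq_one_right (hsq a ha), hdinv]
    rw [mul_assoc, ← mul_assoc d d b, hd2, one_mul]
  have hLn : L.Normal := by
    refine Subgroup.normalizer_eq_top_iff.mp (top_unique fun g _ => ?_)
    have key : ∀ g : G, ∀ x ∈ L, g * x * g⁻¹ ∈ L := by
      intro g x hx
      refine (Subgroup.closure_le (L.comap (MulAut.conj g).toMonoidHom)).mpr ?_ hx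
      rintro _ ⟨e, he, rfl⟩
      show g * (d * e) * g⁻¹ ∈ L
      rw [show g * (d * e) * g⁻¹ = (g * d * g⁻¹) * (g * e * g⁻¹) by group]
      refine hpair _ (hmem g) _ ?_
      exact IsConj.trans he (isConj_iff.mpr ⟨g, rfl⟩)
    rw [Subgroup.mem_normalizer_iff]
    refine fun x => ⟨key g x, fun h => ?_⟩
    have := key g⁻¹ _ h
    rwa [show g⁻¹ * (g * x * g⁻¹) * g⁻¹⁻¹ = x by group] at this
  exact fun a ha b hb => Cores.le_pCore hLn hLp (hpair a ha b hb)

end Cfsg.Agent.ThreeTrans
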